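import Mathlib
import Cfsg.Agent.Base
import Cfsg.Agent.Lib.LocEven.PMin
import Cfsg.Agent.Lib.LocStruct.Res
import Cfsg.Agent.Lib.Comp.FStar
import Cfsg.Agent.Lib.Comp.LayerStruct
import Cfsg.Agent.Lib.Core.CoprimeSylow
import Cfsg.Agent.Lib.Core.Permutable
import Cfsg.Agent.Lib.BG4.MetaAct

/-!
Isolated `p`-minimal subgroups.
-/

set_option autoImplicit false
set_option linter.style.haveILetI false

namespace H91

open Subgroup Cfsg H69
open scoped commutatorElement

/-- The data of an isolated `p`-minimal subgroup. -/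
structure PIso {G : Type*} [Group G] (p : ℕ) (S P L A : Subgroup G) : Prop where
  syl : IsSylowIn p S ⊤
  SP : S ≤ P
  SL : S ≤ L
  AS : A ≤ S
  LA : L ≤ 𝐍(A)
  dich : ∀ H : Subgroup G, S ≤ H → P ≤ H ∨ H ≤ L
  gen : P ⊔ L = ⊤
  ncore : ¬ A ≤ pCoreOf p P

namespace PIso

variable {G : Type*} [Group G] [Finite G] {p : ℕ} [hp : Fact p.Prime] {S P L A : Subgroup G}

omit [Finite G] hp in
theorem isP (h : PIso p S P L A) : IsPGroup p A := h.syl.isP.to_le h.AS

theorem res_sup (h : PIso p S P L A) : 𝐑(p, P) ⊔ S = P :=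
  (h.syl.mono h.SP le_top).res_sup

theorem not_res_le (h : PIso p S P L A) : ¬ 𝐑(p, P) ≤ 𝐍(A) := fun h1 =>
  h.ncore (H1.le_pCoreOf (h.AS.trans h.SP)
    (h.res_sup.ge.trans (sup_le h1 (h.SL.trans h.LA))) h.isP)

theorem not_res_le_L (h : PIso p S P L A) : ¬ 𝐑(p, P) ≤ L := fun h1 => h.not_res_le (h1.trans h.LA)

omit [Finite G] hp in
theorem res_le_or (h : PIso p S P L A) {X : Subgroup G} (hX : S ≤ 𝐍(X)) : 𝐑(p, P) ≤ X ∨ X ≤ L :=
  (h.dich (X ⊔ S) le_sup_right).imp
    (fun h1 => (res_mono h1).trans (res_sup_le h.syl.isP hX)) fun h1 => le_sup_left.trans h1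

theorem sup_eq_top (h : PIso p S P L A) {X : Subgroup G} (hX : 𝐑(p, P) ≤ X) : X ⊔ L = ⊤ := by
  rw [eq_top_iff, ← h.gen, ← h.res_sup]
  exact sup_le (sup_le (hX.trans le_sup_left) (h.SL.trans le_sup_right)) le_sup_right

theorem normal_of (h : PIso p S P L A) {X : Subgroup G} (h1 : 𝐑(p, P) ≤ 𝐍(X)) (h2 : L ≤ 𝐍(X)) :
    X.Normal :=
  normal_iff_top_le_normalizer.2 ((h.sup_eq_top le_rfl).ge.trans (sup_le h1 h2))

/-- Dedekind: a subgroup above a normal subgroup containing `O^p(P)`. -/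
theorem eq_sup_inf (h : PIso p S P L A) {N X : Subgroup G} [N.Normal] (hN : 𝐑(p, P) ≤ N)
    (hX : N ≤ X) : X = N ⊔ (L ⊓ X) := by
  rw [← dedekind_left (le_normalizer_of_normal) hX, h.sup_eq_top hN, top_inf_eq]

theorem map (h : PIso p S P L A) {G' : Type*} [Group G'] {f : G →* G'}
    (hf : Function.Surjective f) (hk : IsPGroup p f.ker) :
    PIso p (S.map f) (P.map f) (L.map f) (A.map f) := by
  have hkS : f.ker ≤ S := h.syl.le_of_le_normalizer hk le_top le_normalizer_of_normal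
  refine ⟨?_, map_mono h.SP, map_mono h.SL, map_mono h.AS,
    (map_mono h.LA).trans (le_normalizer_map f), fun H hH => ?_, ?_, fun h1 => h.ncore ?_⟩
  · have := h.syl.map f
    rwa [map_top_of_surjective f hf] at this
  · rcases h.dich (H.comap f) (map_le_iff_le_comap.1 hH) with h1 | h1
    · exact Or.inl (map_le_iff_le_comap.2 h1)
    · exact Or.inr ((map_comap_eq_self_of_surjective hf H).ge.trans (map_mono h1))
  · rw [← Subgroup.map_sup, h.gen, map_top_of_surjective f hf]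
  · have hP : (P.map f).comap f = P := comap_map_eq_self (hkS.trans h.SP)
    refine (map_le_iff_le_comap.1 h1).trans (H1.le_pCoreOf ?_ ?_ ?_)
    · exact (comap_mono (H1.pCoreOf_le _)).trans hP.le
    · exact (hP.ge.trans (comap_mono (H1.le_normalizer_pCoreOf _))).trans (le_normalizer_comap f)
    · exact (H1.isPGroup_pCoreOf _).comap_of_ker_isPGroup f hk

omit hp in
theorem cent_of_le (h : PIso p S P L A) (h0 : pCore p G = ⊥) {X : Subgroup G} (hX : X.IsSubnormal)
    (hS : S ≤ 𝐍(X)) (hL : X ≤ L) : X ≤ 𝐂(A) := by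
  have h1 : ⁅X, A⁆ ≤ X ⊓ A := le_inf (commutator_le_left_of_le_normalizer (h.AS.trans hS))
    (commutator_le_right_of_le_normalizer (hL.trans h.LA))
  have h2 : (X ⊓ A).IsSubnormal := H23.isSubnormal_of_le_normalizer hX inf_le_left
    (le_normalizer_inf le_normalizer (hL.trans h.LA))
  have h3 := H1.le_pCore_of_isSubnormal h2 (h.isP.to_le inf_le_right)
  exact le_centralizer_of_commutator_eq_bot (le_bot_iff.1 (h0 ▸ h1.trans h3))

omit hp in
theorem res_le_of (h : PIso p S P L A) (h0 : pCore p G = ⊥) {X : Subgroup G} (hX : X.IsSubnormal)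
    (hS : S ≤ 𝐍(X)) (hC : ¬ X ≤ 𝐂(A)) : 𝐑(p, P) ≤ X :=
  (h.res_le_or hS).resolve_right fun h1 => hC (h.cent_of_le h0 hX hS h1)

omit [Finite G] hp in
/-- Inside a `p'`-subgroup, `L` centralizes `A`. -/
theorem inf_le_cent (h : PIso p S P L A) {X : Subgroup G} (hS : S ≤ 𝐍(X)) (hX : A ⊓ X = ⊥) :
    L ⊓ X ≤ 𝐂(A) := by
  refine le_centralizer_of_commutator_eq_bot (le_bot_iff.1 (hX ▸ le_inf ?_ ?_))
  · exact commutator_le_right_of_le_normalizer (inf_le_left.trans h.LA)
  · exact (commutator_mono inf_le_right le_rfl).trans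
      (commutator_le_left_of_le_normalizer (h.AS.trans hS))

/-- The nilpotent case. -/
theorem tcase (h : PIso p S P L A) {t : ℕ} [ht : Fact t.Prime] (htp : t ≠ p) {T : Subgroup G}
    [T.Normal] (hT : IsPGroup t T) (hR : 𝐑(p, P) ≤ T) :
    (𝐑(p, P)).Normal ∧ ⁅𝐑(p, P), 𝐑(p, P)⁆ ≤ 𝐂(𝐑(p, P)) := by
  set R := 𝐑(p, P) with hRdef
  have hpt : p.Coprime t := (Nat.coprime_primes hp.out ht.out).2 (Ne.symm htp)
  have hcS : (Nat.card S).Coprime t := H1.coprime_card_of_isPGroup_of_coprime h.syl.isP hpt.symm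
  have hcA : (Nat.card A).Coprime (Nat.card T) :=
    H2.coprime_card_of_isPGroup (H1.coprime_card_of_isPGroup_of_coprime h.isP hpt.symm) hT
  have hn : ∀ X : Subgroup G, X ≤ 𝐍(T) := fun X => le_normalizer_of_normal
  have hC : L ⊓ T ≤ 𝐂(A) := h.inf_le_cent (hn _) (H2.inf_eq_bot_of_coprime_card hcA)
  set T₁ := L ⊓ T with hT₁
  have hL1 : L ≤ 𝐍(T₁) := le_normalizer_inf le_normalizer (hn _)
  have hRT1 : ¬ R ≤ T₁ := fun h1 => h.not_res_le_L (h1.trans inf_le_left)
  have hlt : T₁ < T := lt_of_le_of_ne inf_le_right fun e => hRT1 (e ▸ hR)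
  have key : ∀ X : Subgroup G, S ≤ 𝐍(X) → X ≤ T → R ≤ X ∨ X ≤ T₁ := fun X h1 h2 =>
    (h.res_le_or h1).imp_right fun h3 => le_inf h3 h2
  haveI hN1 : T₁.Normal := by
    refine h.normal_of ?_ hL1
    rcases key (T ⊓ 𝐍(T₁)) (le_normalizer_inf (hn _)
      (le_normalizer_normalizer (h.SL.trans hL1))) inf_le_left with h1 | h1
    · exact h1.trans inf_le_right
    · exact absurd h1 (lt_inf_normalizer_of_lt hT hlt).not_ge
  -- a normal subgroup of `G` in `T` containing `R` supplements `T₁`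
  have hsup : ∀ (N : Subgroup G) [N.Normal], R ≤ N → N ≤ T → T = N ⊔ T₁ := fun N _ h1 h2 =>
    h.eq_sup_inf h1 h2
  set T₀ := ⁅T, A⁆ with hT₀
  have hT0 : T₀ ≤ T := commutator_le_left T A
  have hL0 : L ≤ 𝐍(T₀) := le_normalizer_commutator (hn _) h.LA
  haveI hN0 : T₀.Normal := h.normal_of (hR.trans (normalizer_commutator_ge_left T A)) hL0
  have hC0 : T₀ ≤ 𝐂(T₁) := H2.commutator_le_centralizer_of_normalizes le_normalizer_of_normal
    (le_centralizer_iff.1 hC)
  have hT0ne : ¬ T₀ ≤ T₁ := fun h1 => by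
    have h2 := H2.le_centralizer_of_commutator_le_centralizer (hn A) hcA (h1.trans hC)
    exact h.not_res_le (hR.trans (h2.trans (centralizer_le_normalizer _)))
  have hR0 : R ≤ T₀ := (key T₀ le_normalizer_of_normal hT0).resolve_right hT0ne
  have hcomm : ∀ (N : Subgroup G), S ≤ 𝐍(N) → T = N ⊔ T₁ → T₁ ≤ 𝐍(N) → T₀ ≤ N := by
    intro N h1 h2 h3
    rw [hT₀, h2, H2.commutator_sup_eq_of_le_centralizer h3 hC]
    exact commutator_le_left_of_le_normalizer (h.AS.trans h1)
  have hder : ⁅T₀, T₀⁆ ≤ T₁ := by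
    have hle : ⁅T₀, T₀⁆ ≤ T := (commutator_le_left _ _).trans hT0
    refine (key _ le_normalizer_of_normal hle).resolve_left fun h1 => ?_
    have h2 := hcomm _ le_normalizer_of_normal (hsup _ h1 hle) le_normalizer_of_normal
    have h3 : T₀ ≠ ⊥ := fun e => hT0ne (e ▸ bot_le)
    exact (H1.commutator_self_lt_of_isSolvable
      (H1.isSolvable_of_isPGroup (hT.to_le hT0)) h3).not_ge h2
  have hT01 : T = T₀ ⊔ T₁ := hsup _ hR0 hT0
  -- pass to `G / T₁`
  let π := QuotientGroup.mk' T₁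
  have hπ : Function.Surjective π := QuotientGroup.mk'_surjective T₁
  have hker : π.ker = T₁ := QuotientGroup.ker_mk' T₁
  have hm1 : T₁.map π = ⊥ := QuotientGroup.map_mk'_self T₁
  have hV : T.map π = T₀.map π := by rw [hT01, Subgroup.map_sup, hm1, sup_bot_eq]
  have hab : IsMulCommutative (T.map π) := by
    rw [hV, ← le_centralizer_iff_isMulCommutative, ← commutator_eq_bot_iff_le_centralizer,
      ← map_commutator, eq_bot_iff, ← hm1]
    exact map_mono hder
  haveI : (T.map π).Normal := Normal.map inferInstance π hπ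
  have hcm : ∀ W : Subgroup (G ⧸ T₁), W ≤ T.map π → W.comap π ≤ T := fun W hW =>
    (comap_mono hW).trans (comap_map_eq_self (hker.le.trans hlt.le)).le
  have key' : ∀ W : Subgroup (G ⧸ T₁), S.map π ≤ 𝐍(W) → W ≤ T.map π → R.map π ≤ W ∨ W = ⊥ := by
    intro W h1 h2
    rcases key (W.comap π) ((map_le_iff_le_comap.1 h1).trans (le_normalizer_comap π)) (hcm W h2)
      with h3 | h3
    · exact Or.inl (map_le_iff_le_comap.2 h3)
    · refine Or.inr (le_bot_iff.1 ?_)
      rw [← map_comap_eq_self_of_surjective hπ W, ← hm1]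
      exact map_mono h3
  have hRne : R.map π ≠ ⊥ := fun e => hRT1 (hker ▸ (Subgroup.map_eq_bot_iff _).1 e)
  have hTne : T.map π ≠ ⊥ := fun e => hRne (le_bot_iff.1 (e ▸ map_mono hR))
  have hea : IsElementaryAbelian t (T.map π) := by
    haveI := H24.omegaOne_normal (p := t) (T.map π)
    have h1 := (key' (omegaOne t (T.map π)) le_normalizer_of_normal (H24.omegaOne_le _)).resolve_right
      (H24.omegaOne_ne_bot_of_isPGroup (hT.map π) hTne)
    have h2 := hsup ((omegaOne t (T.map π)).comap π) (map_le_iff_le_comap.1 h1)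
      (hcm _ (H24.omegaOne_le _))
    have h3 : T.map π = omegaOne t (T.map π) := by
      conv_lhs => rw [h2, Subgroup.map_sup, hm1, sup_bot_eq, map_comap_eq_self_of_surjective hπ]
    rw [h3]
    exact H24.omegaOne_isElementaryAbelian hab
  have hSR : S ≤ 𝐍(R) := h.SP.trans (le_normalizer_res P)
  obtain ⟨W, hW1, hW2, hW3, hW4⟩ := H48.exists_invariant_compl (A := S.map π) hea (map_mono hR)
    le_normalizer_of_normal ((map_mono hSR).trans (le_normalizer_map π))
    (hcS.coprime_dvd_left (card_map_dvd S π))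
  have hW : W = ⊥ := (key' W hW2 hW1).resolve_left fun h1 => hRne (by rwa [inf_eq_left.2 h1] at hW3)
  rw [hW, sup_bot_eq] at hW4
  have hTR : T = R ⊔ T₁ := by
    rw [← comap_map_eq_self (f := π) (hker.le.trans hlt.le), ← hW4, comap_map_eq, hker]
  have e : R = T₀ := le_antisymm hR0 (hcomm R hSR hTR
    ((le_centralizer_iff.1 (hR0.trans hC0)).trans (centralizer_le_normalizer _)))
  rw [e]
  exact ⟨hN0, hder.trans (le_centralizer_iff.1 hC0)⟩

omit [Finite G] hp in
theorem ncl_eq_sSup (K S : Subgroup G) :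
    ncl K S = sSup {K' : Subgroup G | ∃ s ∈ S, K' = K ^ᶜ s} := by
  refine le_antisymm (ncl_le_iff.2 fun g hg => le_sSup ⟨g, hg, rfl⟩) (sSup_le ?_)
  rintro _ ⟨s, hs, rfl⟩
  exact cj_le_ncl K hs

omit [Finite G] hp in
theorem orbit_comp {K : Subgroup G} (hK : IsComponent K) (S : Subgroup G) :
    ∀ K' ∈ {K' : Subgroup G | ∃ s ∈ S, K' = K ^ᶜ s}, IsComponent K' := by
  rintro _ ⟨s, -, rfl⟩
  exact H23.IsComponent.map_conj hK s

omit [Finite G] hp in
theorem ncl_subnormal {K : Subgroup G} (hK : IsComponent K) (S : Subgroup G) :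
    (ncl K S).IsSubnormal := by
  rw [ncl_eq_sSup]; exact H23.isSubnormal_sSup_components (orbit_comp hK S)

omit [Finite G] hp in
theorem ncl_le_layer {K : Subgroup G} (hK : IsComponent K) (S : Subgroup G) :
    ncl K S ≤ layer G := by
  rw [ncl_eq_sSup]; exact H23.sSup_components_le_layer (orbit_comp hK S)

omit [Finite G] hp in
theorem exists_cj_of_le_ncl {K K' : Subgroup G} (hK : IsComponent K) (hK' : IsComponent K')
    {S : Subgroup G} (h : K' ≤ ncl K S) : ∃ s ∈ S, K' = K ^ᶜ s := by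
  rw [ncl_eq_sSup] at h
  exact H23.IsComponent.mem_of_le_sSup hK' (orbit_comp hK S) h

omit hp in
theorem ncl_center_le {K : Subgroup G} (hK : IsComponent K) (S : Subgroup G) :
    ncl K S ⊓ 𝐂(ncl K S) ≤ 𝐂(layer G) := by
  rw [ncl_eq_sSup, H23.center_sSup_components (orbit_comp hK S)]
  exact iSup₂_le fun K' hK' =>
    H23.IsComponent.inf_centralizer_le_centralizer_layer (orbit_comp hK S K' hK')

/-- The component case. -/
theorem ccase (h : PIso p S P L A) (h0 : pCore p G = ⊥) {K : Subgroup G} (hK : IsComponent K)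
    (hKA : ¬ K ≤ 𝐂(A)) :
    normalClosure (𝐑(p, P) : Set G) = ncl K S ∧ p ∣ Nat.card (ncl K S) := by
  set R := 𝐑(p, P) with hRdef
  set X := ncl K S with hX
  set E := layer G with hE
  have hXE : X ≤ E := ncl_le_layer hK S
  have hSX : S ≤ 𝐍(X) := le_normalizer_ncl K S
  have hKX : K ≤ X := le_ncl K S
  have hRX : R ≤ X := h.res_le_of h0 (ncl_subnormal hK S) hSX fun h1 => hKA (hKX.trans h1)
  have hnZ : ¬ R ≤ 𝐂(E) := fun h1 => by
    haveI : (E ⊓ 𝐂(E)).Normal := inferInstance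
    have h2 := h.eq_sup_inf (N := E ⊓ 𝐂(E)) (le_inf (hRX.trans hXE) h1) inf_le_left
    have h3 : ⁅E, E⁆ ≤ L ⊓ E := by
      have h4 : E ≤ 𝐍(L ⊓ E) := by
        conv_lhs => rw [h2]
        exact sup_le ((inf_le_right.trans (H69.centralizer_anti inf_le_right)).trans
          (centralizer_le_normalizer _)) le_normalizer
      exact H23.commutator_le_of_le_sup_centralizer inf_le_right h4 inf_le_right
        (h2.le.trans (sup_comm _ _).le)
    rw [hE, H23.commutator_layer_self] at h3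
    exact hKA ((hKX.trans hXE).trans (h.cent_of_le h0 (Normal.isSubnormal inferInstance)
      le_normalizer_of_normal (h3.trans inf_le_left)))
  have hnX : ¬ R ≤ 𝐂(X) := fun h1 => hnZ ((le_inf hRX h1).trans (ncl_center_le hK S))
  have hother : ∀ K' : Subgroup G, IsComponent K' → ¬ K' ≤ X → K' ≤ 𝐂(A) := by
    intro K' hK' hne
    by_contra hc
    have h1 := h.res_le_of h0 (ncl_subnormal hK' S) (le_normalizer_ncl K' S)
      fun h1 => hc ((le_ncl K' S).trans h1)
    refine hnX (h1.trans (ncl_le_centralizer (le_centralizer_of_commutator_eq_bot ?_) hSX))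
    exact (H23.IsComponent.le_or_commutator_eq_bot hK' (ncl_subnormal hK S)).resolve_left hne
  have hEX : E ≤ 𝐍(X) := H23.layer_le_normalizer_of_isSubnormal (ncl_subnormal hK S)
  have hSA : S ≤ 𝐍(A) := h.SL.trans h.LA
  have hEA : ⁅E, A⁆ ≤ X := by
    rw [hE, H23.layer_def, sSup_eq_iSup']
    refine commutator_iSup_le_left (fun K' => (H23.IsComponent.le_layer K'.2).trans hEX)
      fun K' => ?_
    by_cases h1 : K'.1 ≤ X
    · exact (commutator_mono h1 le_rfl).trans
        (commutator_le_left_of_le_normalizer (h.AS.trans hSX))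
    · rw [commutator_eq_bot_of_le_centralizer (hother _ K'.2 h1)]; exact bot_le
  have hXA : X ≤ ⁅X, A⁆ := by
    refine ncl_le ?_ (le_normalizer_commutator hSX hSA)
    refine ((H23.IsComponent.le_commutator_or hK A).resolve_right fun h1 =>
      hKA (le_centralizer_of_commutator_eq_bot h1)).trans (commutator_mono hKX le_rfl)
  have hXe : X = ⁅E, A⁆ := le_antisymm (hXA.trans (commutator_mono hXE le_rfl)) hEA
  haveI hXn : X.Normal := h.normal_of (hRX.trans le_normalizer)
    (hXe ▸ le_normalizer_commutator le_normalizer_of_normal h.LA)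
  refine ⟨le_antisymm (normalClosure_le_normal hRX) (ncl_le ?_ le_normalizer_of_normal), ?_⟩
  · refine (H23.IsComponent.le_or_commutator_eq_bot_of_le_normalizer hK
      le_normalizer_of_normal).resolve_right fun h1 => hnX ?_
    refine le_normalClosure.trans (le_centralizer_iff.1 ?_)
    exact ncl_le_centralizer (le_centralizer_of_commutator_eq_bot h1) le_normalizer_of_normal
  · by_contra hpX
    have hcop : (Nat.card S).Coprime (Nat.card X) := H1.coprime_card_of_isPGroup_of_coprime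
      h.syl.isP ((Nat.Prime.coprime_iff_not_dvd hp.out).2 hpX).symm
    have hsolv : Group.IsSolvable S ∨ Group.IsSolvable X :=
      Or.inl (H1.isSolvable_of_isPGroup h.syl.isP)
    have hC : L ⊓ X ≤ 𝐂(A) := h.inf_le_cent hSX
      (H2.inf_eq_bot_of_coprime_card (H2.coprime_of_le_left hcop h.AS))
    have hRne : R ≠ ⊥ := fun e => h.not_res_le_L (by rw [← hRdef, e]; exact bot_le)
    obtain ⟨t, ht, T, hT, hST, hTL⟩ : ∃ (t : ℕ) (_ : Fact t.Prime) (T : Subgroup G),
        H68.SylowIn t T X ∧ S ≤ 𝐍(T) ∧ ¬ T ≤ L := by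
      by_contra hc
      push Not at hc
      exact h.not_res_le_L (hRX.trans (H2.le_of_forall_invariant_sylowIn_le hSX hcop hsolv
        fun t ht T h1 h2 => hc t ht T h1 h2))
    have hRT : R ≤ T := (h.res_le_or hST).resolve_right hTL
    have hidx : (T.relIndex X).Coprime ((L ⊓ X).relIndex X) := by
      refine Nat.coprime_of_dvd fun q hq h1 h2 => ?_
      haveI := Fact.mk hq
      have hqt : q ≠ t := fun e => hT.toH69.not_dvd_relIndex (e ▸ h1)
      obtain ⟨U, hU, hSU⟩ := H2.exists_invariant_sylowIn hSX hcop hsolv q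
      have hUL : U ≤ L := (h.res_le_or hSU).resolve_left fun h3 => hRne (le_bot_iff.1
        ((le_inf h3 hRT).trans (disjoint_iff.1 (IsPGroup.disjoint_of_ne q t hqt U T hU.isPGroup
          hT.isPGroup)).le))
      exact hU.toH69.not_dvd_relIndex_of_le (le_inf hUL hU.le) inf_le_right h2
    have hXT : ⁅X, A⁆ ≤ T := by
      rw [commutator_le]
      intro x hx a ha
      obtain ⟨u, hu, c, hc, rfl⟩ := H1.exists_mul_eq_of_coprime_relIndex hT.le inf_le_right hidx hx
      have e : ⁅u * c, a⁆ = u * (a * u⁻¹ * a⁻¹) := by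
        have := conj_eq_of_mem_centralizer (hC hc) ha
        rw [commutatorElement_def]
        calc u * c * a * (u * c)⁻¹ * a⁻¹ = u * (c * a * c⁻¹) * u⁻¹ * a⁻¹ := by group
          _ = _ := by rw [this]; group
      rw [e]
      exact T.mul_mem hu (conj_mem_of_mem_normalizer (hST (h.AS ha)) (T.inv_mem hu))
    exact H23.IsComponent.not_le_of_isSolvable hK (H1.isSolvable_of_isPGroup hT.isPGroup)
      (hKX.trans (hXA.trans hXT))

/-- The two cases when `O_p(G) = 1`. -/
theorem cases (h : PIso p S P L A) (h0 : pCore p G = ⊥) :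
    (∃ t : ℕ, t.Prime ∧ t ≠ p ∧ 𝐑(p, P) ≤ pCore t G ∧ (𝐑(p, P)).Normal ∧
      ⁅𝐑(p, P), 𝐑(p, P)⁆ ≤ 𝐂(𝐑(p, P))) ∨
    ∃ K : Subgroup G, IsComponent K ∧ normalClosure (𝐑(p, P) : Set G) = ncl K S ∧
      p ∣ Nat.card (ncl K S) := by
  by_cases h1 : ∃ K : Subgroup G, IsComponent K ∧ ¬ K ≤ 𝐂(A)
  · obtain ⟨K, hK, hKA⟩ := h1
    exact Or.inr ⟨K, hK, h.ccase h0 hK hKA⟩
  push Not at h1
  by_cases h2 : ∃ t : Nat.Primes, ¬ pCore (t : ℕ) G ≤ 𝐂(A)
  · obtain ⟨t, ht⟩ := h2
    haveI := Fact.mk t.2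
    have htp : (t : ℕ) ≠ p := fun e => ht (by rw [e, h0]; exact bot_le)
    have hR := h.res_le_of h0 (Normal.isSubnormal inferInstance) le_normalizer_of_normal ht
    exact Or.inl ⟨t, t.2, htp, hR, h.tcase htp H1.isPGroup_pCore hR⟩
  push Not at h2
  have h3 : generalizedFittingSubgroup G ≤ 𝐂(A) := by
    rw [H23.fStar_def, H1.fitting_eq_iSup_pCore]
    exact sup_le (H23.layer_le_iff.2 h1) (iSup_le h2)
  have h4 := H1.le_pCore_of_le_fitting h.isP
    ((le_centralizer_iff.1 h3).trans H23.centralizer_fStar_le_fitting)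
  exact absurd (h4.trans (h0.le.trans bot_le)) h.ncore

end PIso

theorem pIso_of {G : Type*} [Group G] [Finite G] {p : ℕ} [Fact p.Prime] (S : Sylow p G)
    (P : Subgroup G) (hSP : (S : Subgroup G) ≤ P) (L : Subgroup G)
    (hL : L = normalizer ((S : Subgroup G) : Set G) ⊔
      ⨆ P' : {P' : Subgroup G // (S : Subgroup G) ≤ P' ∧ IsPMinimal p ↥P' ∧ P' ≠ P},
        (P' : Subgroup G))
    (hiso : ¬ (pCore p ↥L).map L.subtype ≤ (pCore p ↥P).map P.subtype) :
    PIso p (S : Subgroup G) P L (pCoreOf p L) := by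
  have hNL : 𝐍((S : Subgroup G)) ≤ L := hL ▸ le_sup_left
  have hSL : (S : Subgroup G) ≤ L := le_normalizer.trans hNL
  have hP' : ∀ P' : Subgroup G, (S : Subgroup G) ≤ P' → IsPMinimal p P' → P' ≠ P → P' ≤ L :=
    fun P' h1 h2 h3 => hL ▸ (le_iSup (fun P' : {P' : Subgroup G // (S : Subgroup G) ≤ P' ∧
      IsPMinimal p ↥P' ∧ P' ≠ P} => (P' : Subgroup G)) ⟨P', h1, h2, h3⟩).trans le_sup_right
  have key : ∀ H X : Subgroup G, (S : Subgroup G) ≤ H → L ≤ X → (P ≤ H → P ≤ X) → H ≤ X := by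
    intro H X hH hX hP g hg
    have h1 := H68.pElementClosure_le_of_pMinimal (hSL.trans hX) H (isSylowIn_of_le S hH)
      fun P' h1 h2 h3 => by
        by_cases e : P' = P
        · exact e ▸ hP (e ▸ h2)
        · exact (hP' P' h1 h3 e).trans hX
    obtain ⟨x, hx, y, hy, rfl⟩ := H68.exists_pElementClosure_mul (H68.sylowIn_of_le S hH) hg
    exact X.mul_mem (h1 hx) (hX (hNL hy.2))
  refine ⟨isSylowIn_top S, hSP, hSL, H1.pCoreOf_le_sylow S hSL, H1.le_normalizer_pCoreOf L,
    fun H hH => ?_, eq_top_iff.2 (key ⊤ _ le_top le_sup_right fun _ => le_sup_left), hiso⟩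
  by_cases h : P ≤ H
  · exact Or.inl h
  · exact Or.inr (key H L hH le_rfl fun h1 => absurd h1 h)

end H91
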