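import Mathlib
import Cfsg.Agent.Base
import Cfsg.Agent.Lib.Loc91.PIso

/-!
Isolated `p`-minimal subgroups: transfer from `G / O_p(G)`.
-/

set_option autoImplicit false
set_option linter.style.haveILetI false

namespace H91

open Subgroup Cfsg H69
open scoped commutatorElement

variable {G : Type*} [Group G] {p : ℕ}

theorem exists_emb_pCore (p : ℕ) (Y : Subgroup G) [Y.Normal] :
    ∃ e : (Y ⧸ pCore p Y) ≃* Y.map (QuotientGroup.mk' (pCore p G)),
      ∀ K : Subgroup (Y ⧸ pCore p Y), (K.comap (QuotientGroup.mk' (pCore p Y))).map Y.subtype =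
        ((K.map e.toMonoidHom).map (Subgroup.subtype _)).comap (QuotientGroup.mk' (pCore p G)) ⊓ Y := by
  let π := QuotientGroup.mk' (pCore p G)
  let f : Y →* Y.map π := π.subgroupMap Y
  have hf : Function.Surjective f := π.subgroupMap_surjective Y
  have hk : pCore p Y = f.ker := by
    ext y
    rw [MonoidHom.mem_ker, ← Subtype.coe_inj, ← H70.mem_pCoreOf, H1.pCoreOf_eq_inf]
    exact ⟨fun h => (QuotientGroup.eq_one_iff _).2 h.1,
      fun h => ⟨(QuotientGroup.eq_one_iff _).1 h, y.2⟩⟩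
  let e : (Y ⧸ pCore p Y) ≃* Y.map π :=
    (QuotientGroup.quotientMulEquivOfEq hk).trans (QuotientGroup.quotientKerEquivOfSurjective f hf)
  have he : ∀ y : Y, ((e (QuotientGroup.mk y) : Y.map π) : G ⧸ pCore p G) = π y := fun _ => rfl
  refine ⟨e, fun K => le_antisymm ?_ ?_⟩
  · rintro _ ⟨y, hy, rfl⟩
    exact ⟨⟨_, ⟨_, hy, rfl⟩, he y⟩, y.2⟩
  · rintro y ⟨⟨_, ⟨k, hk, rfl⟩, h1⟩, hy⟩
    refine ⟨⟨y, hy⟩, ?_, rfl⟩
    have : k = QuotientGroup.mk ⟨y, hy⟩ := e.injective (Subtype.ext (h1.trans (he ⟨y, hy⟩).symm))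
    subst this
    exact hk

theorem class_le_two {X : Subgroup G} (h : ⁅X, X⁆ ≤ 𝐂(X)) :
    ∃ _ : Group.IsNilpotent X, Group.nilpotencyClass X ≤ 2 := by
  have h2 : (⊤ : Subgroup X).lowerCentralSeries 2 = ⊥ := by
    rw [← map_subtype_eq_bot_iff]
    change Subgroup.map X.subtype ⁅⁅(⊤ : Subgroup X), (⊤ : Subgroup X)⁆, (⊤ : Subgroup X)⁆ = ⊥
    rw [map_commutator, map_commutator, map_subtype_top]
    exact commutator_eq_bot_of_le_centralizer h
  haveI : Group.IsNilpotent X := Subgroup.nilpotent_iff_lowerCentralSeries.mpr ⟨2, h2⟩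
  exact ⟨this, Subgroup.lowerCentralSeries_eq_bot_iff_nilpotencyClass_le.mp h2⟩

namespace PIso

variable [Finite G] [hp : Fact p.Prime] {S P L A : Subgroup G}

theorem quot (h : PIso p S P L A) :
    PIso p (S.map (QuotientGroup.mk' (pCore p G))) (P.map (QuotientGroup.mk' (pCore p G)))
      (L.map (QuotientGroup.mk' (pCore p G))) (A.map (QuotientGroup.mk' (pCore p G))) :=
  h.map (QuotientGroup.mk'_surjective _) (by rw [QuotientGroup.ker_mk']; exact H1.isPGroup_pCore)

omit hp in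
theorem normal_of_map (h : PIso p S P L A)
    (hn : (𝐑(p, P.map (QuotientGroup.mk' (pCore p G)))).Normal) : (𝐑(p, P)).Normal := by
  have h1 := hn.comap (QuotientGroup.mk' (pCore p G))
  rw [← map_res, comap_map_eq, QuotientGroup.ker_mk'] at h1
  have h2 : pCore p G ≤ P := (h.syl.le_of_le_normalizer H1.isPGroup_pCore le_top
    le_normalizer_of_normal).trans h.SP
  rw [← res_eq_of_le (le_sup_left : 𝐑(p, P) ≤ 𝐑(p, P) ⊔ pCore p G) (sup_le (res_le P) h2)]
  exact normal_iff_top_le_normalizer.2 (le_normalizer_res_of_le le_normalizer_of_normal)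

omit hp in
theorem map_closure (P : Subgroup G) :
    (normalClosure (𝐑(p, P) : Set G)).map (QuotientGroup.mk' (pCore p G)) =
      normalClosure (𝐑(p, P.map (QuotientGroup.mk' (pCore p G))) : Set (G ⧸ pCore p G)) := by
  rw [← ncl_top, map_ncl, map_res, map_top_of_surjective _ (QuotientGroup.mk'_surjective _), ncl_top]

end PIso

end H91
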